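/- C3 tower (row S5227): the level L0c. -/
import Cfsg.Agent.H20.C3Spec

set_option autoImplicit false
set_option linter.unusedSimpArgs false

open Subgroup H90.RF H20.C3

namespace H13.C3L

theorem cm_R {s m : Co} (hs : s ∈ sR) (hm : m ∈ sR) : cm s m =
    vv 0 0 0 (m.b * s.e - m.e * s.b) (m.e * s.d + m.f * s.b - m.b * s.f - m.d * s.e)
      (m.d * s.f - m.f * s.d) := by
  ext <;> simp [vv, cm_d, cm_e, cm_f, cm_g, cm_h, cm_z, hs.1, hs.2, hm.1, hm.2, two] <;> ring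

theorem vv_one {c e f g h z : F3} : vv c e f g h z = 1 ↔ c = 0 ∧ e = 0 ∧ f = 0 ∧ g = 0 ∧ h = 0 ∧ z = 0 := by
  simp [vv, Co.ext_iff]

theorem cm_W {s m : Co} (hs : s ∈ sW) (hm : m ∈ sE1) : cm s m = 1 := by
  obtain ⟨h1, h2, h3, h4, h5, h6⟩ := hs
  have h7 : m.a = 0 := hm
  ext <;> simp [cm_d, cm_e, cm_f, cm_g, cm_h, cm_z, *]

theorem cube_c {m : Co} (ha : m.a = 0) (h : m ^ 3 = 1) : m.b ^ 2 * m.c = 0 ∧ m.d ^ 2 * m.c = 0 := by
  have h1 := congrArg Co.g h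
  have h2 := congrArg Co.z h
  simp only [pow_succ _ 2, pow_two m, Co.mul_a, Co.mul_b, Co.mul_d, Co.mul_c, Co.mul_e, Co.mul_f, Co.mul_g,
    Co.mul_h, Co.mul_z, Co.one_g, Co.one_z, ha] at h1 h2
  constructor
  · linear_combination -h1 + (m.g + 2 * m.b * m.e + 2 * m.b ^ 2 * m.c) * three
  · linear_combination -h2 + (m.z + 2 * m.d * m.f + 2 * m.d ^ 2 * m.c) * three

theorem zero_of {b d c : F3} (h : ¬ (b = 0 ∧ d = 0)) (h1 : b * c = 0) (h2 : d * c = 0) : c = 0 := by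
  revert b d c; decide

theorem ef_zero {b d e f : F3} (h : ¬ (b = 0 ∧ d = 0)) (h1 : b * e = 0) (h2 : b * f + d * e = 0)
    (h3 : d * f = 0) : e = 0 ∧ f = 0 := by
  revert b d e f; decide

theorem exists_k {b d b' d' : F3} (h : ¬ (b = 0 ∧ d = 0)) (h1 : b * d' - b' * d = 0) :
    ∃ k, b' = k * b ∧ d' = k * d := by
  revert b d b' d'; decide

theorem Z_eq {t u : Co} (ht : t.a ≠ 0) (hu : u ∈ sZ) : u = cm t (cm t (xg (-u.z))) := by
  obtain ⟨h1, h2, h3, h4, h5, h6, h7, h8⟩ := hu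
  have := sq_one ht
  ext <;> simp [xg, cm_d, cm_e, cm_f, cm_g, cm_h, cm_z, *]
  linear_combination (2 * u.z) * this + u.z * three

theorem cm_cm_A (s t m : Co) : cm s (cm t m) ∈ sA := ⟨cm_a _ _, cm_b _ _, by simp [cm_d]⟩

theorem jobL0c : JobL0c := fun E M h h1 h2 => by
  have cen : ∀ s, s ∈ E ↔ ∀ m ∈ M, cm s m = 1 := fun s => (h.cen s).trans
    (forall₂_congr fun _ _ => mem_bot)
  obtain ⟨m0, hm0, n0⟩ := SetLike.not_le_iff_exists.1 h2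
  have a0 : m0.a = 0 := h1 hm0
  have n1 : ¬ (m0.b = 0 ∧ m0.d = 0) := fun k => n0 ⟨a0, k⟩
  have WE : sW ≤ E := fun s hs => (cen s).2 fun m hm => cm_W hs (h1 hm)
  have E1 : E ≤ sE1 := fun t ht => by
    by_contra ta
    refine h2 (h.gen_le fun β hβ u hu _ => ?_)
    have k : xg (-u.z) ∈ E := WE ⟨rfl, rfl, rfl, rfl, rfl, rfl⟩
    have k2 : cm t (xg (-u.z)) ∈ E := mul_mem (inv_mem k) (mul_mem (mul_mem ht k) (inv_mem ht))
    rw [Z_eq ta hu, hβ.1.cm ht k2]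
    rw [hβ.1.cm ht k]
    exact cm_cm_A _ _ _
  have c0 : m0.c = 0 := by
    have := cube_c a0 (mem_bot.1 (h.pw m0 hm0))
    refine zero_of (b := m0.b ^ 2) (d := m0.d ^ 2) (by simpa using n1) this.1 this.2
  have ER : E ≤ sR := fun t ht => ⟨E1 ht, by
    have k := (cen t).1 ht m0 hm0
    have ta : t.a = 0 := E1 ht
    have k1 := congrArg Co.e k
    have k2 := congrArg Co.f k
    simp [cm_e, cm_f, a0, c0, ta] at k1 k2
    exact zero_of n1 (mul_eq_zero.2 k1) (mul_eq_zero.2 k2)⟩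
  have MR : M ≤ sR := h.ME.trans ER
  have cR : ∀ t ∈ E, ∀ m ∈ M, m.b * t.e - m.e * t.b = 0 ∧
      m.e * t.d + m.f * t.b - m.b * t.f - m.d * t.e = 0 ∧ m.d * t.f - m.f * t.d = 0 := fun t ht m hm => by
    have := (cen t).1 ht m hm
    rw [cm_R (ER ht) (MR hm), vv_one] at this
    exact this.2.2.2
  have A5R : sA5 ≤ sR := fun s hs => ⟨hs.1, hs.2.2.2⟩
  by_cases hk : ∀ m ∈ M, m0.b * m.d - m.b * m0.d = 0
  · have A5E : ∀ s ∈ sA5, s ∈ E → s.e = 0 ∧ s.f = 0 := fun s hs k => by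
      have := cR s k m0 hm0
      rw [hs.2.1, hs.2.2.1] at this
      exact ef_zero n1 (by linear_combination this.1) (by linear_combination -this.2.1)
        (by linear_combination this.2.2)
    have hf : ∀ x y, vv 0 x y 0 0 0 ∈ sA5 := fun _ _ => ⟨rfl, rfl, rfl, rfl⟩
    refine (h.no2 (B := sA5) (le_nor fun s hs c hc => WE ?_) (fun x hx y hy m hm => mem_bot.2 ?_)
      (s := vv 0 1 0 0 0 0) (hf 1 0) (fun k => one_ne_zero (A5E _ (hf 1 0) k).1)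
      (fun x y => vv 0 x y 0 0 0) (fun k => vv 0 0 0 (k * m0.b) (-(k * m0.d)) 0) hf
      (fun x y x' y' k => ?_) fun m hm => ?_).elim
    · rw [cm_R (A5R hs) (ER hc)]; exact ⟨rfl, rfl, rfl, rfl, rfl, rfl⟩
    · rw [cm_R (A5R hy) (MR hm), cm_R (A5R hx) ⟨rfl, rfl⟩, vv_one]
      simp [vv]
    · have := A5E _ (mul_mem (inv_mem (hf x y)) (hf x' y')) k
      simp [vv] at this
      exact ⟨by linear_combination -this.1, by linear_combination -this.2⟩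
    · obtain ⟨k, k1, k2⟩ := exists_k n1 (hk m hm)
      refine ⟨k, mem_bot.2 (inv_mul_eq_one.2 ?_)⟩
      rw [cm_R (A5R (hf 1 0)) (MR hm)]
      simp [vv, k1, k2]
  push Not at hk
  obtain ⟨m1, hm1, hd⟩ := hk
  have sq := sq_one hd
  obtain ⟨p1, p2, p3⟩ := cR m0 (h.ME hm0) m1 hm1
  have key : ∃ l, m0.e = l * m0.b ∧ m0.f = l * m0.d ∧ m1.e = l * m1.b ∧ m1.f = l * m1.d := by
    refine ⟨(m0.b * m1.d - m1.b * m0.d) * (m0.e * m1.d - m1.e * m0.d), ?_, ?_, ?_, ?_⟩ <;> grind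
  obtain ⟨l, e0, f0, e1, f1⟩ := key
  have le : E ≤ sE0 l := fun t ht => by
    obtain ⟨q1, -, q2⟩ := cR t ht m0 hm0
    obtain ⟨q3, -, q4⟩ := cR t ht m1 hm1
    refine ⟨(ER ht).1, (ER ht).2, ?_, ?_⟩ <;> grind
  refine ⟨l, le_antisymm le fun s hs => (cen s).2 fun m hm => ?_⟩
  obtain ⟨-, -, r1, r2⟩ := le (h.ME hm)
  rw [cm_R ⟨hs.1, hs.2.1⟩ (MR hm), vv_one, hs.2.2.1, hs.2.2.2, r1, r2]
  refine ⟨rfl, rfl, rfl, ?_, ?_, ?_⟩ <;> ring

end H13.C3L
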