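import Cfsg.Agent.H95.G24
import Cfsg.Agent.H40.E7Spec

/-! Tower E7S, job G24: the configuration `A₅ × A₅`, `3^{1+2}` in `G₂(4)`. -/

set_option autoImplicit false
set_option maxRecDepth 100000

namespace H13.E7G

open H71 H81 H95.G24 H40.E7S Cfsg.Lie H6

universe u

theorem cfgG_map {G H : Type*} [Group G] [Group H] (f : G →* H) (hf : Function.Injective f)
    (h : CfgG G) : CfgG H := by
  obtain ⟨a, b, c, y, z, w, k, h1, h2, h3, h4, h5, h6, h7, h8, h9⟩ := h
  refine ⟨f a, f b, f c, f y, f z, f w, ⟨(orderOf_injective f hf _).trans k.oz, fun i hi => ?_,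
    (orderOf_injective f hf _).trans k.ot, k.zy.map f, k.zt.map f, ?_, k.wz.map f, ?_⟩,
    (orderOf_injective f hf _).trans h1, ?_, h3.map f, h4.map f, f.map_isConj h5, ?_, ?_,
    h8.map f, ?_⟩
  · rw [← map_pow, ← map_mul, orderOf_injective f hf, k.oy i hi]
  · rw [← map_mul, ← map_pow, k.ty, map_one]
  · rw [← map_inv, ← map_mul, ← map_mul, k.wt, map_inv]
  · rw [← map_mul, h2, map_mul, map_mul]
  · rw [← map_mul]; exact f.map_isConj h6
  · rw [← map_pow, ← map_mul]; exact f.map_isConj h7
  · rw [← map_mul, ← map_pow, h9, map_one]

/-- words of the elements `a b c y z w` and of three conjugating elements -/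
def W : List (List ℕ) := [[33,2,35,0], [18,30,15,3,30,33], [21,14,23,12], [33,2], [21,14], [33,0,33], [18,0,30,19,15], [18,2,31,19,15], [18,1,32,19,15]]

/-- their codes -/
def cs : List ℕ := [
  0x4000000c000000300000020000000c0000008000000300000020000000800000040000003000000200000004000000c0000002000000100000004000000c0000001000000300000004000000c0000003000000200000008000000400000020000001,
  0x8000000400020000001000000020000001000000020000001000200000010000000000200000010800000040000000000800000040008000000400000008000000400000008000000400020000001000000000000a000000500000080000004,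
  0x80000004000000200000010000000c00000080000001000000300000004000000c00000020000001000000080000004000000300000020000000c0000008000000100000030000000800000040000002000000100000008000000400000020000001,
  0x400002cc000018300800020040000c008000800400030020002001000080000004000000300800020040100800030040000002000000100004008000c004000100200030010000100800030040c000024800001c000000800000048000026400001d,
  0x8000000400000027200001e1000035200002f100001f200003a10000004200c00c10082d200001b1000000087800004e4000c2004008100c000c5800008f400004f80000ca400008d800004b4000000200000010000000800000040082006004100d,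
  0x200000010000800000040000000800000040000002000000100008000000400000000080000004020000001000000000200000010000800000040000002000000100000002000000100008000000400000000000080000004000000a0000005,
  0xd02807bb0140e6a01c07950380e70801c000403800034020002c010002802000140100d0340a9b02c057a0340db502c0b60802800040140008034000402c0001c02000380100701c0abe03805670280d9e0140b7a0280a050140507034070e02c0e0,
  0xd03c0edb02809ba0240ee501c09908024000401c00034030002c020002803000140200b0340f9602c0a7503406bf02c0d604028000c0140004034000c02c000380200024010090380a6702405d90140d7703c0be50280f0f0140a0e034090902c070,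
  0xd014096b03c07da038097502407e08038000402400034010002c0300028010001403006034059d02c0f7f0340bba02c0660c0280008014000c034000802c00024020001c0100e0240ad901c05be03c0de90280b9f028050a0140f090340e0702c090]

/-- the elements -/
noncomputable def el (l : ℕ) : chevG2.group F4 := evw xg (nthD W [] l)

theorem ι_el (l : ℕ) : ι (el l) = C.dec (nthD cs C.one l) := by
  by_cases hl : l < 9
  · refine evw_eq ι_xg ?_
    revert l
    decide +kernel
  · rw [el, nthD_eq, nthD_eq, List.getD_eq_default _ _ (by simp [W]; omega),
      List.getD_eq_default _ _ (by simp [cs]; omega), evw_nil, map_one, C.dec_one]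

theorem ι_evw (w : List ℕ) : ι (evw el w) = (w.map fun l => C.dec (nthD cs C.one l)).prod := by
  rw [evw, map_list_prod, List.map_map]
  congr 2
  exact funext ι_el

theorem rel (w w' : List ℕ) (h : mw C.mul (nthD cs C.one) w
    (fun x => mw C.mul (nthD cs C.one) w' (Nat.beq x) C.one) C.one = true) :
    evw el w = evw el w' := by
  obtain ⟨x, h1, h2⟩ := mw_sound C w _ h
  rw [C.dec_one, one_mul] at h2
  exact ι_inj (by rw [ι_evw, ι_evw, mw_one C h1, h2])

theorem nrel (w : List ℕ) (k : ℕ) (h : mw C.mul (nthD cs C.one) w
    (fun x => !Nat.beq (C.ent x k) (C.ent C.one k)) C.one = true) : evw el w ≠ 1 := fun e => by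
  obtain ⟨x, h1, h2⟩ := mw_sound C w _ h
  rw [C.dec_one, one_mul, ← ι_evw, e, map_one, ← C.dec_one] at h2
  rw [C.ent_eq _ _ k h2] at h1
  simp at h1

theorem ord (p : ℕ) [Fact p.Prime] (w : List ℕ) (k : ℕ)
    (h : mw C.mul (nthD cs C.one) (List.replicate p w).flatten
      (fun x => mw C.mul (nthD cs C.one) [] (Nat.beq x) C.one) C.one = true)
    (h' : mw C.mul (nthD cs C.one) w (fun x => !Nat.beq (C.ent x k) (C.ent C.one k)) C.one = true) :
    orderOf (evw el w) = p := by
  refine orderOf_eq_prime ?_ (nrel w k h')
  have := rel _ _ h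
  rwa [evw, List.map_flatten, List.prod_flatten, List.map_replicate, List.map_replicate,
    List.prod_replicate] at this

theorem cfg : CfgG (chevG2.group F4) := by
  have : Fact (Nat.Prime 5) := ⟨Nat.prime_five⟩
  have : Fact (Nat.Prime 3) := ⟨Nat.prime_three⟩
  have oa : orderOf (el 0) = 3 := by simpa [evw] using ord 3 [0] 116 (by decide +kernel) (by decide +kernel)
  have cj : ∀ {x y : chevG2.group F4} (g), g * x = y * g → IsConj x y := fun g e =>
    isConj_iff.2 ⟨g, mul_inv_eq_of_eq_mul e⟩
  refine ⟨el 0, el 1, el 2, el 3, el 4, el 5, ⟨?_, fun i hi => ?_, oa, ?_, ?_, ?_, ?_, ?_⟩, ?_, ?_,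
    ?_, ?_, cj (el 6) ?_, cj (el 7) ?_, cj (el 8) ?_, ?_, ?_⟩
  · simpa [evw] using ord 5 [4] 2 (by decide +kernel) (by decide +kernel)
  · interval_cases i
    · simpa [evw] using ord 5 [3] 2 (by decide +kernel) (by decide +kernel)
    · simpa [evw] using ord 5 [4, 3] 4 (by decide +kernel) (by decide +kernel)
    · simpa [evw, pow_succ, mul_assoc] using ord 5 [4, 4, 3] 3 (by decide +kernel) (by decide +kernel)
    · simpa [evw, pow_succ, mul_assoc] using
        ord 5 [4, 4, 4, 3] 3 (by decide +kernel) (by decide +kernel)
    · simpa [evw, pow_succ, mul_assoc] using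
        ord 5 [4, 4, 4, 4, 3] 4 (by decide +kernel) (by decide +kernel)
  · simpa [evw, commute_iff_eq] using rel [4, 3] [3, 4] (by decide +kernel)
  · simpa [evw, commute_iff_eq] using rel [4, 0] [0, 4] (by decide +kernel)
  · simpa [evw, pow_two, mul_assoc] using rel [0, 3, 0, 3] [] (by decide +kernel)
  · simpa [evw, commute_iff_eq] using rel [5, 4] [4, 5] (by decide +kernel)
  · rw [mul_inv_eq_iff_eq_mul, eq_inv_mul_iff_mul_eq]
    simpa [evw] using rel [0, 5, 0] [5] (by decide +kernel)
  · simpa [evw] using ord 3 [2] 233 (by decide +kernel) (by decide +kernel)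
  · simpa [evw, mul_assoc] using rel [0, 1] [1, 0, 2] (by decide +kernel)
  · simpa [evw, commute_iff_eq] using rel [2, 0] [0, 2] (by decide +kernel)
  · simpa [evw, commute_iff_eq] using rel [2, 1] [1, 2] (by decide +kernel)
  · simpa [evw] using rel [6, 1] [0, 6] (by decide +kernel)
  · simpa [evw] using rel [7, 0, 1] [0, 7] (by decide +kernel)
  · simpa [evw, pow_two, mul_assoc] using rel [8, 0, 0, 1] [0, 8] (by decide +kernel)
  · simpa [evw, commute_iff_eq] using rel [2, 3] [3, 2] (by decide +kernel)
  · simpa [evw, pow_two, mul_assoc] using rel [2, 4, 2, 4] [] (by decide +kernel)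

theorem jobG24 : JobG24.{u} := fun F _ _ h => by
  obtain ⟨e⟩ := equiv_F4
  obtain ⟨e'⟩ := equiv_K F h
  exact cfgG_map (e.symm.trans e').toMonoidHom (e.symm.trans e').injective cfg

end H13.E7G
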