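/- Tower FB (S3404): case A, even degree. -/
import Cfsg.Agent.H11.FBSpec

set_option autoImplicit false

namespace H13.FBA1

open MulAction Subgroup H11.FB

universe u v

variable {G : Type u} {Ω : Type v} [Group G] [MulAction G Ω]

theorem par [Finite G] [Fintype Ω] {x y : G} (hx : x * x = 1) (hy : y * y = 1) (h : x * y = y * x)
    (he : Even (Fintype.card Ω)) : Even {ω : Ω | x • ω = ω ∧ y • ω = ω}.ncard := by
  have hc : Commute x y := h
  have sq : ∀ i j : ℕ, x ^ i * y ^ j * (x ^ i * y ^ j) = 1 := fun i j => by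
    rw [(hc.pow_pow i j).symm.mul_mul_mul_comm, ← (Commute.refl x).mul_pow,
      ← (Commute.refl y).mul_pow, hx, hy, one_pow, one_pow, one_mul]
  let V : Subgroup G :=
    { carrier := {g | ∃ i j : ℕ, g = x ^ i * y ^ j}
      one_mem' := ⟨0, 0, by simp⟩
      mul_mem' := by
        rintro _ _ ⟨i, j, rfl⟩ ⟨k, l, rfl⟩
        exact ⟨i + k, j + l, by rw [(hc.pow_pow k j).symm.mul_mul_mul_comm, pow_add, pow_add]⟩
      inv_mem' := by
        rintro _ ⟨i, j, rfl⟩
        exact ⟨i, j, inv_eq_of_mul_eq_one_right (sq i j)⟩ }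
  have hV : IsPGroup 2 V := by
    rintro ⟨_, i, j, rfl⟩
    exact ⟨1, Subtype.ext (by simpa [pow_two] using sq i j)⟩
  have h1 := hV.card_modEq_card_fixedPoints Ω
  have e : fixedPoints V Ω = {ω : Ω | x • ω = ω ∧ y • ω = ω} := by
    ext ω
    refine ⟨fun hω => ⟨hω ⟨x, 1, 0, by simp⟩, hω ⟨y, 0, 1, by simp⟩⟩, ?_⟩
    rintro ⟨h1, h2⟩ ⟨_, i, j, rfl⟩
    change (x ^ i * y ^ j) • ω = ω
    exact mul_mem (pow_mem (show x ∈ stabilizer G ω from h1) i)
      (pow_mem (show y ∈ stabilizer G ω from h2) j)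
  rw [e, Nat.card_eq_fintype_card, Nat.card_coe_set_eq] at h1
  rw [Nat.even_iff] at he ⊢
  exact (Eq.symm h1).trans he

theorem out [Fintype Ω] (h7 : 7 ≤ Fintype.card Ω) (a b c d : Ω) :
    ∃ e, e ≠ a ∧ e ≠ b ∧ e ≠ c ∧ e ≠ d := by
  classical
  have h4 : ({a, b, c, d} : Finset Ω).card < (Finset.univ : Finset Ω).card :=
    lt_of_le_of_lt Finset.card_le_four (by rw [Finset.card_univ]; omega)
  obtain ⟨e, -, he⟩ := Finset.exists_mem_notMem_of_card_lt_card h4
  exact ⟨e, by simpa only [Finset.mem_insert, Finset.mem_singleton, not_or] using he⟩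

theorem jobA1 : JobA1.{u, v} := by
  intro od rg a12 G Ω _ _ _ _ _ a b c d K H t hy cd ea he
  classical
  have h7 := cd.seven
  obtain ⟨ab, ac, ad, bc, bd, cd'⟩ := hy.ne
  have tr : ∀ {p q r s p' q' r' s' : Ω}, D4 p q r s → D4 p' q' r' s' →
      ∃ g : G, g • p = p' ∧ g • q = q' ∧ g • r = r' ∧ g • s = s' := fun h h' => by
    obtain ⟨g, -, hg⟩ := hy.tr _ _ _ _ _ _ _ _ h h' trivial trivial trivial trivial trivial trivial
      trivial trivial
    exact ⟨g, hg⟩
  have cS : {x : Ω | x ≠ a}.ncard = Fintype.card Ω - 1 := by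
    have := Set.ncard_add_ncard_compl ({a} : Set Ω)
    rw [Set.ncard_singleton, Nat.card_eq_fintype_card] at this
    change ({a}ᶜ : Set Ω).ncard = _
    omega
  have key := od (stabilizer G a) {x | x ≠ a}
    (fun m hm x hx e => hx (MulAction.injective m (e.trans (mem_stabilizer_iff.1 hm).symm)))
    (fun m hm h => eq_of_smul_eq_smul (α := Ω) fun x => by
      rw [one_smul]
      by_cases e : x = a
      · rw [e]; exact hm
      · exact h x e)
    (by rw [cS]; exact Nat.Even.sub_odd (by omega) he odd_one)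
    (fun p hp q hq r hr s hs pq rs => by
      obtain ⟨e, e1, e2, e3, -⟩ := out h7 a p q q
      obtain ⟨f, f1, f2, f3, -⟩ := out h7 a r s s
      obtain ⟨g, g1, g2, g3, -⟩ := tr (p := a) (q := p) (r := q) (s := e) (p' := a) (q' := r)
        (r' := s) (s' := f) ⟨Ne.symm hp, Ne.symm hq, e1.symm, pq, e2.symm, e3.symm⟩
        ⟨Ne.symm hr, Ne.symm hs, f1.symm, rs, f2.symm, f3.symm⟩
      exact ⟨g, g1, g2, g3⟩)
    b ab.symm c ac.symm bc
    (fun x hx y hy' x1 xx y1 yy xy => by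
      have h1 := par (Ω := Ω) xx yy xy he
      obtain ⟨w, ⟨wx, wy⟩, hw⟩ : ∃ w ∈ {ω : Ω | x • ω = ω ∧ y • ω = ω}, w ∉ ({a, b, c} : Set Ω) := by
        by_contra hn
        push Not at hn
        have e : {ω : Ω | x • ω = ω ∧ y • ω = ω} = {a, b, c} := Set.Subset.antisymm hn (by
          rintro _ (rfl | rfl | rfl)
          exacts [⟨hx.1, hy'.1⟩, ⟨hx.2.1, hy'.2.1⟩, ⟨hx.2.2, hy'.2.2⟩])
        rw [e, Set.ncard_eq_three.2 ⟨a, b, c, ab, ac, bc, rfl⟩] at h1
        exact absurd h1 (by decide)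
      simp only [Set.mem_insert_iff, Set.mem_singleton_iff, not_or] at hw
      obtain ⟨g, g1, g2, g3, g4⟩ := tr hy.ne (p' := a) (q' := b) (r' := c) (s' := w)
        ⟨ab, ac, Ne.symm hw.1, bc, Ne.symm hw.2.1, Ne.symm hw.2.2⟩
      have mem : ∀ z ∈ stabilizer G a ⊓ Y2 G b c, z • w = w → g⁻¹ * z * g ∈ L4 G a b c d :=
        fun z hz zw => mem_L4.2 (by
          simp only [conj_smul_iff, g1, g2, g3, g4]
          exact ⟨hz.1, hz.2.1, hz.2.2, zw⟩)
      have ne : ∀ z : G, z ≠ 1 → g⁻¹ * z * g ≠ 1 := fun z hz e => hz (by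
        calc z = g * (g⁻¹ * z * g) * g⁻¹ := by group
          _ = 1 := by rw [e]; group)
      have sq : ∀ z : G, z * z = 1 → g⁻¹ * z * g * (g⁻¹ * z * g) = 1 := fun z hz => by
        calc _ = g⁻¹ * (z * z) * g := by group
          _ = 1 := by rw [hz]; group
      have := ea.hf _ (mem x hx wx) _ (mem y hy' wy) (ne x x1) (sq x xx) (ne y y1) (sq y yy) (by
        calc _ = g⁻¹ * (x * y) * g := by group
          _ = _ := by rw [xy]; group)
      simpa using this)
  rcases key with ⟨N, NM, nm, tN, rN⟩ | ⟨J, JM, -, nm, -, h | ⟨h11, hJ⟩⟩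
  · obtain ⟨n, hn, nb⟩ := tN b ab.symm c ac.symm
    have na : n • a = a := NM hn
    have e1 : n • c ≠ a := fun e => ac (MulAction.injective n (na.trans e.symm))
    have e3 : n • c ≠ c := fun e => bc (MulAction.injective n (nb.trans e.symm))
    have e2 : n • c ≠ b := fun e => by
      have nn : n * n = 1 := rN b ab.symm _ (mul_mem hn hn) (by rw [mul_smul, nb, e])
      have h1 := par (Ω := Ω) nn nn rfl he
      have e' : {ω : Ω | n • ω = ω ∧ n • ω = ω} = {a} := by
        ext ω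
        refine ⟨fun h => ?_, fun h => by rw [show ω = a from h]; exact ⟨na, na⟩⟩
        by_contra hω
        have := rN ω hω n hn h.1
        rw [this, one_smul] at nb
        exact bc nb
      rw [e', Set.ncard_singleton] at h1
      exact absurd h1 (by decide)
    obtain ⟨f, f1, f2, f3, f4⟩ := out h7 a b c (n • c)
    obtain ⟨g, g1, g2, g3, g4⟩ := tr (p := a) (q := b) (r := c) (s := n • c) (p' := a) (q' := b)
      (r' := c) (s' := f) ⟨ab, ac, e1.symm, bc, e2.symm, e3.symm⟩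
      ⟨ab, ac, f1.symm, bc, f2.symm, f3.symm⟩
    have h1 : n⁻¹ * (g * n * g⁻¹) = 1 := rN b ab.symm _ (mul_mem (inv_mem hn) (nm g g1 n hn)) (by
      rw [mul_smul, inv_smul_eq_iff, mul_smul, mul_smul, inv_smul_eq_iff.2 g2.symm, nb, g3])
    have h2 : g * n = n * g := by
      rw [inv_mul_eq_one, eq_mul_inv_iff_mul_eq] at h1
      exact h1.symm
    exact f4 (by rw [← g4, ← mul_smul, h2, mul_smul, g3])
  · obtain ⟨Q, -, mQ, tQ, rQ⟩ := h b ab.symm
    refine rg hy.tr hy.ne h7 (hy.fr.Hle ea.mem) ea.ne ea.sq (N := Q)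
      ⟨fun x hx => ⟨JM ((mQ x).1 hx).1, ((mQ x).1 hx).2.1⟩, fun m hm x hx => ?_,
        fun x hx y hy' => tQ x hx.1 y hy'.1 hx.2 hy'.2, fun x hx => rQ x hx.1 hx.2⟩
    obtain ⟨h1, h2, k, h3⟩ := (mQ x).1 hx
    have mb : m • b = b := hm.2
    refine (mQ _).2 ⟨nm m hm.1 x h1, ?_, k, by rw [conj_pow, h3]; group⟩
    rw [mul_smul, mul_smul, inv_smul_eq_iff.2 mb.symm, h2, mb]
  · exact a12 hy cd ea (by omega) JM nm hJ

end H13.FBA1
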