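import Cfsg.Agent.H56.OreKit

/-! ORE tower, chapter 1, job Ind: Fitting decomposition and the Cayley transform. -/

set_option autoImplicit false

namespace H13.Ore

open Module QuadraticMap Polynomial H56 H56.Ore

universe u

variable {F V : Type*} [Field F] [AddCommGroup V] [Module F V] [FiniteDimensional F V]
  {Q : QuadraticForm F V}

theorem fitting (hQ : Q.polarBilin.Nondegenerate) {N T w : End F V} (hI : Ind Q N)
    (hc : Commute N T) (hw : IsUnit w) (hwc : Commute w T)
    (h : ∀ x y, polar Q (T x) y = polar Q x ((w * T) y)) : IsNilpotent T ∨ IsUnit T := by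
  obtain ⟨k, hk⟩ := Filter.eventually_atTop.1 T.eventually_isCompl_ker_pow_range_pow
  have hk' := hk (k + 1) (Nat.le_succ k)
  have hp : ∀ n x y, polar Q ((T ^ n) x) y = polar Q x (((w * T) ^ n) y) := by
    intro n
    induction n with
    | zero => intro x y; simp
    | succ n ih => intro x y; rw [pow_succ', End.mul_apply, h, ih, pow_succ]; rfl
  have hker : LinearMap.ker ((w * T) ^ (k + 1)) = LinearMap.ker (T ^ (k + 1)) := by
    ext x
    rw [hwc.mul_pow, LinearMap.mem_ker, LinearMap.mem_ker, End.mul_apply]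
    exact map_eq_zero_iff _ ((End.isUnit_iff _).1 (hw.pow _)).1
  rcases hI (LinearMap.range (T ^ (k + 1))) (by
      rintro _ ⟨x, rfl⟩
      exact ⟨N x, by rw [← End.mul_apply, ← (hc.pow_right _).eq, End.mul_apply]⟩)
    (by rw [perp_range hQ (hp (k + 1)), hker]; exact hk'.disjoint.symm) with e | e
  · exact .inl ⟨k + 1, LinearMap.range_eq_bot.1 e⟩
  · refine .inr ((LinearMap.isUnit_iff_range_eq_top T).2 (eq_top_iff.2 ?_))
    rw [← e]
    rintro _ ⟨x, rfl⟩
    exact ⟨(T ^ k) x, by rw [pow_succ', End.mul_apply]⟩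

theorem jobSkew (hN : JobNil.{u}) (hC : JobCyc.{u}) (hE : JobEv.{u}) (hT : JobTF.{u}) :
    JobSkew.{u} := by
  intro F V _ _ _ _ _ Q hQ h2 N hV hS hI h1
  rcases fitting hQ hI (Commute.refl N) (w := -1) isUnit_neg_one (Commute.neg_one_left N)
    (fun x y => by rw [hS]; simp) with h | h
  · exact .inl (hN hQ h2 N hV hS hI h)
  · obtain ⟨f, k, v, hc⟩ := hC hQ h2 N hV hS hI h
    rcases Nat.even_or_odd k with e | e
    · exact .inl (hE hQ h2 N f k v hS h hc e)
    · exact .inr (hT hQ h2 N f k v hS h h1 hc e)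

/-- The Cayley transform. -/
theorem cayley (h2 : (2 : F) ≠ 0) {g : O Q} (hu : IsUnit (g.lin + 1 : End F V))
    (hI : Ind Q g.lin) : ∃ N : End F V, Skew Q N ∧ Ind Q N ∧ IsUnit (1 + N) ∧
      ∀ s : O Q, Anti N s → s * g * (s * g) = 1 ∧ (s * g).rk = s.rk := by
  obtain ⟨u, hu'⟩ := hu
  have hb := (End.isUnit_iff _).1 u.isUnit
  have ua : ∀ a, u.val a = g a + a := fun a => by rw [hu']; simp
  have sur : ∀ x, ∃ a, g a + a = x := fun x => by
    obtain ⟨a, ha⟩ := hb.2 x
    exact ⟨a, by rw [← ua, ha]⟩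
  obtain ⟨N, hN⟩ : ∃ N : End F V, ∀ a, N (g a + a) = g a - a :=
    ⟨(g.lin - 1 : End F V) * (u⁻¹).val, fun a => by
      rw [← ua, End.mul_apply, ← End.mul_apply (u⁻¹).val, Units.inv_mul]; simp⟩
  have two : ∀ a : V, a + a = 0 → a = 0 := fun a h => by
    rw [← two_smul F] at h
    exact (smul_eq_zero.1 h).resolve_left h2
  have inj : ∀ x, x - N x = 0 → x = 0 := fun x hx => by
    obtain ⟨a, rfl⟩ := sur x
    rw [hN] at hx
    rw [two a (by rw [← hx]; abel)]
    simp
  have rel : ∀ x, g (x - N x) = x + N x := fun x => by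
    obtain ⟨a, rfl⟩ := sur x
    rw [hN, show g a + a - (g a - a) = a + a by abel, map_add]
    abel
  have sur' : ∀ y, ∃ x, x - N x = y := by
    have : Function.Injective (1 - N : End F V) := (injective_iff_map_eq_zero _).2 inj
    exact LinearMap.injective_iff_surjective.1 this
  refine ⟨N, fun x y => ?_, fun W hW hd => hI W (fun w hw => ?_) hd, ?_, fun s hs => ?_⟩
  · obtain ⟨a, rfl⟩ := sur x
    obtain ⟨b, rfl⟩ := sur y
    simp only [hN, polar_sub_left, polar_sub_right, polar_add_left, polar_add_right, O.map_polar]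
    ring
  · have h1 : ∀ x ∈ W, (1 - N : End F V) x ∈ W := fun x hx => W.sub_mem hx (hW x hx)
    have : Function.Injective ((1 - N : End F V).restrict h1) :=
      (injective_iff_map_eq_zero _).2 fun x hx => Subtype.ext (inj x (congrArg Subtype.val hx))
    obtain ⟨x, hx⟩ := LinearMap.injective_iff_surjective.1 this ⟨w, hw⟩
    have e : (x : V) - N x = w := congrArg Subtype.val hx
    rw [O.lin_apply, ← e, rel]
    exact W.add_mem x.2 (hW x x.2)
  · refine (LinearMap.isUnit_iff_ker_eq_bot _).2 (LinearMap.ker_eq_bot'.2 fun x hx => inj x ?_)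
    rw [← g.apply_eq_zero, rel]
    exact hx
  · have e : s * g * (s * g) = 1 := O.ext fun y => by
      obtain ⟨x, rfl⟩ := sur' y
      simp only [O.mul_apply, O.one_apply]
      rw [rel, map_add, hs.2, ← sub_eq_add_neg, rel, map_add, hs.2, apply_apply hs.1,
        sub_eq_add_neg]
    refine ⟨e, (rk_eq_of_conj (u := s.lin * u.val) ?_ fun x => ?_).symm⟩
    · exact ((End.isUnit_iff _).2 ⟨s.injective, s.surjective⟩).mul u.isUnit
    · have := apply_apply e x
      simp only [O.mul_apply] at this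
      simp only [End.mul_apply, O.lin_apply, ua, map_add, O.mul_apply, this, apply_apply hs.1]
      abel

theorem jobInd (hS : JobSkew.{u}) : JobInd.{u} := by
  intro F V _ _ _ _ _ Q hQ h2 g hV hI
  have hg : IsUnit (g⁻¹).lin := (End.isUnit_iff _).2 ⟨g⁻¹.injective, g⁻¹.surjective⟩
  rcases fitting hQ hI (T := g.lin + 1) ((Commute.refl _).add_right (Commute.one_right _)) hg
    (LinearMap.ext fun x => by simp)
    (fun x y => by simp [polar_add_left, polar_add_right, g.polar_apply_left, add_comm]) with h | h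
  · have hu : IsUnit ((O.negOne Q * g).lin + 1 : End F V) := by
      have e : ((O.negOne Q * g).lin + 1 : End F V) = (2 : F) • 1 + -(g.lin + 1) :=
        LinearMap.ext fun x => by simp [two_smul]; abel
      rw [e]
      refine IsNilpotent.isUnit_add_left_of_commute h.neg ?_ ?_
      · exact IsUnit.smul (Units.mk0 _ h2) isUnit_one
      · exact (Commute.one_right _).smul_right _
    obtain ⟨N, h1, h3, h4, h5⟩ := cayley h2 hu fun W hW => hI W fun x hx => by
      simpa using hW x hx
    have pr : ∀ s : O Q, Anti N s → Pr hQ g s.rk (finrank F V - s.rk) (spinor hQ s) :=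
      fun s hs => by
        obtain ⟨e1, e2⟩ := h5 s hs
        have e : s * g = O.negOne Q * (s * (O.negOne Q * g)) := O.ext fun x => by simp
        refine ⟨s, hs.1, by rw [e, Ore.neg_mul_neg, e1], rfl, ?_, rfl⟩
        have := rk_neg h2 e1
        rw [e]
        omega
    rcases hS hQ h2 N hV h1 h3 h4 with ⟨s, hs, a1, a2, a3, a4⟩ | k
    · refine .inl ⟨s.rk, a1, a2, a3, .inr ⟨a4 ▸ pr s hs, fun h1 v => ?_⟩⟩
      by_cases hv : v = 0
      · simp [hv]
      obtain ⟨c, hc⟩ := exists_smul_eq_of_finrank_eq_one h1 hv ((g.lin + 1 : End F V) v)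
      obtain ⟨k, hk⟩ := h
      have hp : ∀ n, ((g.lin + 1 : End F V) ^ n) v = c ^ n • v := fun n => by
        induction n with
        | zero => simp
        | succ n ih => rw [pow_succ', End.mul_apply, ih, map_smul, ← hc, smul_smul, pow_succ]
      have := hp k
      rw [hk, LinearMap.zero_apply] at this
      have c0 : c = 0 := pow_eq_zero_iff'.1 ((smul_eq_zero.1 this.symm).resolve_right hv) |>.1
      rw [c0, zero_smul] at hc
      exact eq_neg_of_add_eq_zero_left hc.symm
    · obtain ⟨s0, -, e0, -⟩ := k 1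
      refine .inr ⟨s0.rk, e0.symm, fun θ => ?_⟩
      obtain ⟨s, hs, e, rfl⟩ := k θ
      have := pr s hs
      rwa [show finrank F V - s.rk = s0.rk by omega, show s.rk = s0.rk by omega] at this
  · obtain ⟨N, h1, h3, h4, h5⟩ := cayley h2 h hI
    have pr : ∀ s : O Q, Anti N s → Pr hQ g s.rk s.rk (spinor hQ s) := fun s hs =>
      ⟨s, hs.1, (h5 s hs).1, rfl, (h5 s hs).2, rfl⟩
    rcases hS hQ h2 N hV h1 h3 h4 with ⟨s, hs, a1, a2, a3, a4⟩ | k
    · exact .inl ⟨s.rk, a1, a2, a3, .inl (a4 ▸ pr s hs)⟩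
    · obtain ⟨s0, -, e0, -⟩ := k 1
      refine .inr ⟨s0.rk, e0.symm, fun θ => ?_⟩
      obtain ⟨s, hs, e, rfl⟩ := k θ
      have := pr s hs
      rwa [show s.rk = s0.rk by omega] at this

end H13.Ore
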