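/- S3694, chapter OUT: job Op (components of `PΩ⁺`). -/
import Cfsg.Agent.H58.SOSpec
import Cfsg.Agent.S0296
import Cfsg.Agent.S0302
import Cfsg.Agent.S0249
import Cfsg.Agent.S0299
import Cfsg.Agent.S0287

set_option autoImplicit false

namespace H13.SOOp

open Subgroup Cfsg H98 Matrix H0.Sim H58.SO

theorem jobOp : JobOp := by
  intro m F _ _ ho hm
  rcases (show m = 2 ∨ m = 3 ∨ 4 ≤ m by omega) with rfl | rfl | h4
  · by_cases h3 : Fintype.card F = 3
    · refine .inr ⟨h3, ?_⟩
      rw [Cfsg.Agent.S0287.result h3 2 (by norm_num)]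
      decide
    · have h1 := Fintype.one_lt_card (α := F)
      obtain ⟨k, hk⟩ := ho
      obtain ⟨e⟩ := Cfsg.Agent.S0299.result (F := F) (by omega)
      exact .inl (hc_equiv e.symm (hc_prod (hc_simple
        (Matrix.ProjectiveSpecialLinearGroup.rank_two_simple (F := F)
          (by rw [Nat.card_eq_fintype_card]; omega)))))
  · obtain ⟨e⟩ := Cfsg.Agent.S0302.result (F := F)
    exact .inl (hc_equiv e.symm (hc_simple (Cfsg.Agent.S0249.result 4 (by norm_num))))
  · exact .inl (hc_simple (Cfsg.Agent.S0296.result m h4))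

end H13.SOOp
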