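import Cfsg.Agent.H30.SQSpec

/-! Tower SQ (S4132): job C2. -/

set_option autoImplicit false

open Cfsg Subgroup H30.SQ

namespace H13.SQC2

universe u

variable {G : Type*} [Group G]

theorem cj_comm {x s t : G} (h : Commute (x⁻¹ * s * x) t) : Commute s (x * t * x⁻¹) := by
  have e := h.eq
  show s * (x * t * x⁻¹) = x * t * x⁻¹ * s
  calc s * (x * t * x⁻¹) = x * (x⁻¹ * s * x * t) * x⁻¹ := by group
    _ = _ := by rw [e]; group

theorem mem_cj {U : Subgroup G} {x u : G} (hx : x ∈ normalizer (U : Set G)) (hu : u ∈ U) :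
    x * u * x⁻¹ ∈ U := (mem_normalizer_iff.1 hx u).1 hu

theorem mem_cj' {U : Subgroup G} {x u : G} (hx : x ∈ normalizer (U : Set G)) (hu : u ∈ U) :
    x⁻¹ * u * x ∈ U := by
  simpa using mem_cj (inv_mem hx) hu

theorem comm_of_cj {a b : G} (h : a * b * a⁻¹ = b) : Commute a b := mul_inv_eq_iff_eq_mul.1 h

theorem jobC2 : JobC2.{u} := by
  intro G _ _ T A U n H S lf w hw hwA hwU x hx hxA
  obtain ⟨m, hm⟩ := H.ev
  obtain ⟨wn, wn2⟩ := S.Ac _ hwA
  obtain ⟨a, ha⟩ : ∃ a, a = x * w ^ n * x⁻¹ := ⟨_, rfl⟩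
  have aU : a ∈ U := ha ▸ mem_cj hx (S.ZU _ wn)
  have aT : a ∈ T := S.UT aU
  have ac : ∀ u ∈ U, Commute u a := fun u hu =>
    ha ▸ cj_comm (wn.2 _ (S.UT (mem_cj' hx hu)))
  have a2 : a * a = 1 := by
    rw [ha, show x * w ^ n * x⁻¹ * (x * w ^ n * x⁻¹) = x * (w ^ n * w ^ n) * x⁻¹ by group, wn2]
    group
  have ai : a⁻¹ = a := inv_eq_of_mul_eq_one_right a2
  have Ca : ∀ s ∈ T, (Commute s a ↔ s ∈ U) := fun s hs =>
    ⟨S.K a aU ac ⟨_, hwA, isConj_iff.2 ⟨x, ha.symm⟩⟩ (ha ▸ hxA) s hs, ac s⟩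
  have naw : ¬ Commute a w := fun h => hwU ((Ca w hw.1).1 h.symm)
  obtain ⟨c, hc⟩ : ∃ c, c = w⁻¹ * (a * w * a⁻¹) := ⟨_, rfl⟩
  have aw : a * w * a⁻¹ = w * c := by rw [hc]; group
  have cT : c ∈ T := hc ▸ T.mul_mem (T.inv_mem hw.1)
    (T.mul_mem (T.mul_mem aT hw.1) (T.inv_mem aT))
  have sc : ∀ s ∈ T, Commute s w → Commute s c := fun s hs h => by
    rw [hc]
    refine h.inv_right.mul_right (cj_comm ?_)
    rcases hw.2 _ (T.mul_mem (T.inv_mem aT) hs) a aT with h1 | h1 | h1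
    · refine absurd ?_ naw
      have := (h1.mul_left h.inv_left).inv_left
      simpa using this
    · exact absurd h1 naw
    · exact h1
  have wc : Commute w c := sc w hw.1 (Commute.refl w)
  have c1 : c ≠ 1 := fun h => naw (comm_of_cj (by rw [aw, h, mul_one]))
  have aca : a * c * a⁻¹ = c⁻¹ := by
    have e : a * (a * w * a⁻¹) * a⁻¹ = w := by
      rw [show a * (a * w * a⁻¹) * a⁻¹ = (a * a) * w * (a * a)⁻¹ by group, a2]; group
    rw [aw, show a * (w * c) * a⁻¹ = (a * w * a⁻¹) * (a * c * a⁻¹) by group, aw] at e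
    rw [eq_inv_iff_mul_eq_one]
    have e2 : c * (a * c * a⁻¹) = 1 := by
      have := mul_left_cancel (a := w) (b := c * (a * c * a⁻¹)) (c := 1) (by rw [← mul_assoc, e, mul_one])
      exact this
    rw [eq_inv_of_mul_eq_one_right e2, inv_mul_cancel]
  have asw : ∀ s ∈ T, ¬ Commute s w → Commute (a * s) w := fun s hs h =>
    ((hw.2 a aT s hs).resolve_left naw).resolve_left h
  have sw : ∀ s ∈ T, ¬ Commute s w → s * w * s⁻¹ = w * c := fun s hs h => by
    have e := (asw s hs h).eq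
    rw [← aw]
    calc s * w * s⁻¹ = a⁻¹ * (a * s * w) * s⁻¹ := by group
      _ = a⁻¹ * w * a := by rw [e]; group
      _ = _ := by rw [ai]
  have cen : ∀ y ∈ T, (∀ s ∈ T, Commute s w → Commute s y) → Commute a y → Cen T y :=
    fun y hy h1 h2 => ⟨hy, fun s hs => by
      by_cases h : Commute s w
      · exact h1 s hs h
      · have := h2.inv_left.mul_left (h1 _ (T.mul_mem aT hs) (asw s hs h))
        simpa using this⟩
  have pw : ∀ s ∈ T, ¬ Commute s w → ∀ k : ℕ, s * w ^ k * s⁻¹ = w ^ k * c ^ k := fun s hs h k => by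
    rw [← cj_pow, sw s hs h, wc.mul_pow]
  have cn : c ^ n = 1 := by
    have e := pw a aT naw n
    rw [(wn.2 a aT).eq, mul_inv_cancel_right] at e
    exact (mul_left_cancel (a := w ^ n) (by rw [mul_one]; exact e)).symm
  obtain ⟨j, hj, oc⟩ := (Nat.dvd_prime_pow Nat.prime_two).1 (hm ▸ orderOf_dvd_of_pow_eq_one cn)
  obtain _ | j := j
  · exact absurd (orderOf_eq_one_iff.1 oc) c1
  obtain ⟨k, hk⟩ : ∃ k, k = 2 ^ j := ⟨_, rfl⟩
  have k0 : 0 < k := hk ▸ pow_pos two_pos j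
  have ok : orderOf c = k + k := by rw [oc, hk]; ring
  have z2 : c ^ k * c ^ k = 1 := by rw [← pow_add, ← ok, pow_orderOf_eq_one]
  have z1 : c ^ k ≠ 1 := pow_ne_one_of_lt_orderOf k0.ne' (by omega)
  have zi : (c ^ k)⁻¹ = c ^ k := inv_eq_of_mul_eq_one_right z2
  have zc : Cen T (c ^ k) := cen _ (T.pow_mem cT k) (fun s hs h => (sc s hs h).pow_right k)
    (comm_of_cj (by rw [← cj_pow, aca, inv_pow, zi]))
  have ix : ∀ s ∈ U, ∀ t ∈ U, Commute s (w ^ k) ∨ Commute t (w ^ k) ∨ Commute (s * t) (w ^ k) :=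
    fun s hs t ht => (hw.2 s (S.UT hs) t (S.UT ht)).imp (·.pow_right k)
      (Or.imp (·.pow_right k) (·.pow_right k))
  have nu : NU T U (w ^ k) (c ^ k) :=
    { νT := T.pow_mem hw.1 k
      νU := fun h => z1 (by
        have e := pw a aT naw k
        rw [(ac _ h).symm.eq, mul_inv_cancel_right] at e
        exact (mul_left_cancel (a := w ^ k) (by rw [mul_one]; exact e)).symm)
      zc := zc
      z1 := z1
      z2 := z2
      mv := fun u hu => by
        by_cases h : Commute u w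
        · exact Or.inl (h.pow_right k)
        · right
          have e := pw u (S.UT hu) h k
          have e1 := (zc.2 u (S.UT hu)).eq
          have e2 := (zc.2 _ (T.pow_mem hw.1 k)).eq
          calc w ^ k * u * (w ^ k)⁻¹ = w ^ k * u * (u⁻¹ * (u * w ^ k * u⁻¹) * u)⁻¹ := by group
            _ = w ^ k * (c ^ k)⁻¹ * (w ^ k)⁻¹ * u := by rw [e]; group
            _ = u * c ^ k := by rw [zi, e2, e1]; group
      ix := ix }
  obtain ⟨l1, l2, l3, l4⟩ := lf _ _ nu x hx _ hwA hxA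
  have ixx : ∀ s ∈ U, ∀ t ∈ U, Commute s (x * w ^ k * x⁻¹) ∨ Commute t (x * w ^ k * x⁻¹) ∨
      Commute (s * t) (x * w ^ k * x⁻¹) := fun s hs t ht =>
    (ix _ (mem_cj' hx hs) _ (mem_cj' hx ht)).imp cj_comm (Or.imp cj_comm fun h => cj_comm (by
      rwa [show x⁻¹ * (s * t) * x = x⁻¹ * s * x * (x⁻¹ * t * x) by group]))
  have ζ : Cen T (w * w * c) := cen _ (T.mul_mem (T.mul_mem hw.1 hw.1) cT)
    (fun s hs h => (h.mul_right h).mul_right (sc s hs h)) (comm_of_cj (by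
      rw [show a * (w * w * c) * a⁻¹ = (a * w * a⁻¹) * (a * w * a⁻¹) * (a * c * a⁻¹) by group,
        aw, aca, mul_assoc, mul_inv_cancel_right, mul_assoc, ← wc.eq, ← mul_assoc]))
  have hjm : j = m := by
    by_contra hne
    obtain ⟨d, rfl⟩ : ∃ d, m = j + 1 + d := ⟨m - (j + 1), by omega⟩
    obtain ⟨e, he⟩ : ∃ e, e = k * 2 ^ d := ⟨_, rfl⟩
    have hη : Cen T ((w * w * c) ^ e) := ⟨T.pow_mem ζ.1 e, fun s hs => (ζ.2 s hs).pow_right e⟩
    have e1 : (w * w * c) ^ e * (w * w * c) ^ e = w ^ n := by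
      rw [← pow_add, (wc.mul_left wc).mul_pow, ← sq, ← pow_mul,
        show e + e = orderOf c * 2 ^ d by rw [ok, he]; ring, pow_mul c, pow_orderOf_eq_one, one_pow,
        mul_one, hm, oc]
      congr 1
      ring
    refine l3 (e1 ▸ ?_)
    rcases ixx _ (S.ZU _ hη) _ (S.ZU _ hη) with h | h | h
    · exact h.mul_left h
    · exact h.mul_left h
    · exact h
  subst hjm
  have kn : k = n / 2 := by rw [hk, hm, pow_succ, Nat.mul_div_cancel _ two_pos]
  have mx : ∀ s, s ∈ U ⊓ centralizer ({x * w ^ k * x⁻¹} : Set G) ↔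
      s ∈ U ∧ Commute s (x * w ^ k * x⁻¹) := fun s => by
    rw [mem_inf, mem_centralizer_singleton_iff]; rfl
  have vU : x * c ^ k * x⁻¹ ∈ U := mem_cj hx (S.ZU _ zc)
  refine ⟨U ⊓ centralizer ({x * w ^ k * x⁻¹} : Set G), c, c ^ k, x * c ^ k * x⁻¹, a,
    { UT := S.UT
      xU := inf_le_left
      ix := fun s hs t ht => (ixx s hs t ht).imp (fun h => (mx _).2 ⟨hs, h⟩)
        (Or.imp (fun h => (mx _).2 ⟨ht, h⟩) fun h => (mx _).2 ⟨U.mul_mem hs ht, h⟩)
      ZU := S.ZU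
      br := hw
      wn := wn
      ax := fun h => l3 ((mx _).1 h).2
      wc := wc
      oc := by rw [oc, hm]
      zc := by rw [kn]
      zx := fun h => l2 ((mx _).1 h).2
      a2 := a2
      aw := aw
      Ca := Ca
      aU := aU
      vU := vU
      vc := fun u hu => cj_comm (zc.2 _ (S.UT (mem_cj' hx hu)))
      v2 := by
        rw [show x * c ^ k * x⁻¹ * (x * c ^ k * x⁻¹) = x * (c ^ k * c ^ k) * x⁻¹ by group, z2]
        group
      vw := sw _ (S.UT vU) fun h => l1 (h.pow_right k)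
      vz := isConj_iff.2 ⟨x, rfl⟩
      sig := kn ▸ l4 }⟩

end H13.SQC2
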